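import Mathlib
import Cfsg.Prelude.Def_Transfer
import Cfsg.Agent.Transfer.Frobenius

/-! Definitions for S4131 / S4132 (small `p`-parts of class sizes of prime-power elements). -/

set_option autoImplicit false

namespace Cfsg.Agent.Ppn

open Cfsg Subgroup

/-- `y` has order a power of a prime different from `p`. -/
def PP {G : Type*} [Group G] (p : ℕ) (y : G) : Prop :=
  ∃ r k : ℕ, r.Prime ∧ r ≠ p ∧ orderOf y = r ^ k

/-- The fixed points of an automorphism. -/
def Fx {K : Type*} [Group K] (α : MulAut K) : Subgroup K :=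
  MonoidHom.eqLocus α.toMonoidHom (MonoidHom.id K)

theorem mem_Fx {K : Type*} [Group K] {α : MulAut K} {x : K} : x ∈ Fx α ↔ α x = x := Iff.rfl

/-- Some element `y` of odd prime-power order is fixed by no automorphism `α` with `α² = 1`
whose fixed-point group has a normal 2-complement. -/
def Good (K : Type*) [Group K] : Prop :=
  ∃ y : K, PP 2 y ∧ ∀ α : MulAut K, α * α = 1 → α y = y → ¬ HasNormalPComplement 2 (Fx α)

/-- The hypothesis of the core lemma (`L` is a normal subgroup of `M`). -/
def Hy {M : Type*} [Group M] (p : ℕ) (L : Subgroup M) : Prop :=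
  (∀ s : M, orderOf s = p → HasNormalPComplement p ↥(L ⊓ centralizer ({s} : Set M))) ∧
  ∀ y ∈ L, PP p y → ∃ s : M, orderOf s = p ∧ s * y = y * s

theorem PP.coprime {G : Type*} [Group G] {p : ℕ} (hp : p.Prime) {y : G} (h : PP p y) :
    (orderOf y).Coprime p := by
  obtain ⟨r, k, hr, hrp, e⟩ := h
  rw [e]
  exact ((Nat.coprime_primes hr hp).2 hrp).pow_left k

theorem PP.map {G H : Type*} [Group G] [Group H] {p : ℕ} {y : G} (h : PP p y) (f : G →* H) :
    PP p (f y) := by
  obtain ⟨r, k, hr, hrp, e⟩ := h
  obtain ⟨j, -, hj⟩ := (Nat.dvd_prime_pow hr).1 (e ▸ orderOf_map_dvd f y)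
  exact ⟨r, j, hr, hrp, hj⟩

theorem Good.of_equiv {K L : Type*} [Group K] [Group L] [Finite L] (e : K ≃* L) (h : Good L) :
    Good K := by
  obtain ⟨y, hy, h⟩ := h
  have : Fact (Nat.Prime 2) := ⟨Nat.prime_two⟩
  have : Finite K := Finite.of_equiv _ e.symm.toEquiv
  refine ⟨e.symm y, hy.map e.symm.toMonoidHom, fun α h1 h2 h3 => ?_⟩
  refine h ((e.symm.trans α).trans e) (MulEquiv.ext fun x => ?_) (by simp [h2]) ?_
  · have := congrArg (fun β : MulAut K => β (e.symm x)) h1
    simp only [MulAut.mul_apply, MulAut.one_apply] at this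
    simp [this]
  · let f : Fx ((e.symm.trans α).trans e) →* Fx α :=
      (e.symm.toMonoidHom.comp (Subgroup.subtype _)).codRestrict _ fun x => by
        have h := mem_Fx.1 x.2
        simp only [MulEquiv.trans_apply] at h
        exact mem_Fx.2 (e.injective (by simpa using h))
    exact Transfer.HasNormalPComplement.of_injective h3 f fun a b hab =>
      Subtype.ext (e.symm.injective (congrArg Subtype.val hab))

end Cfsg.Agent.Ppn
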