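import Mathlib
import Cfsg.Agent.Ppn.Defs
import Cfsg.Agent.S0028

set_option autoImplicit false

namespace Cfsg.Agent.Ppn

open Cfsg Subgroup

theorem ca_cz {M : Type*} [Group M] {s x : M} : x ∈ centralizer (zpowers s : Set M) ↔ s * x = x * s :=
  ⟨fun h => h s (mem_zpowers s), fun h _ ⟨n, e⟩ => e ▸ (Commute.zpow_left h n).eq⟩

theorem ca_lift {G H : Type*} [Group G] [Finite G] [Group H] {r : ℕ} [Fact r.Prime] (f : G →* H) (x : G) {k : ℕ}
    (hk : f x ^ r ^ k = 1) : ∃ u ∈ zpowers x, (∃ j, u ^ r ^ j = 1) ∧ f u = f x := by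
  obtain ⟨u, v, hu, ⟨n, rfl⟩, h1, h2, e⟩ := Transfer.exists_pPart_mul (p := r) x
  refine ⟨u, hu, h1, ?_⟩
  have h3 : f (x ^ n) ^ r ^ k = 1 := by rw [map_zpow, ← zpow_natCast, ← zpow_mul, mul_comm, zpow_mul, zpow_natCast, hk, one_zpow]
  have h4 : f (x ^ n) = 1 := orderOf_eq_one_iff.1 (Nat.Coprime.eq_one_of_dvd
    ((Transfer.coprime_orderOf_map f h2).pow_right k) (orderOf_dvd_of_pow_eq_one h3))
  conv_rhs => rw [e, map_mul]
  rw [h4, mul_one]

/-- PROOF.  Let `y ∈ L`, `PP p y`; it commutes with `s` of order `p`; `y ∈ C = L ⊓ C(s)` (normal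
`p`-complement) normalizes the `p`-group `R ⊓ C(s) ≤ C`, so centralizes it
(`Transfer.HasNormalPComplement.mem_centralizer_of_le`); by Thompson's P×Q lemma
(`Solv.p_times_q p (zpowers s) (zpowers y) R`, S0028) `y` centralizes `R`.  Fix `z ∈ R` of order
`p`.  All `PP p` elements of `L` lie in `L ⊓ C(z)`, which has a normal `p`-complement, so products
of two of them have `p'`-order (`Transfer.hasNormalPComplement_subgroup_iff_mul`).  If `L` had no
normal `p`-complement, `Transfer.exists_qElement_of_not_hasNormalPComplement` (in `↥L`) gives a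
`p`-group `B` and a `PP p` element `g ∈ N(B) \ C(B)`; for `b ∈ B`, `b g b⁻¹ · g⁻¹ ∈ B` has
`p'`-order, hence is `1`. -/
theorem coreA {M : Type*} [Group M] [Finite M] {p : ℕ} [Fact p.Prime] {L R : Subgroup M}
    [L.Normal] [R.Normal] (h : Hy p L) (hRL : R ≤ L) (hR : IsPGroup p R) (h1 : R ≠ ⊥) :
    HasNormalPComplement p L := by
  have hp : p.Prime := Fact.out
  have key : ∀ y ∈ L, PP p y → y ∈ centralizer (R : Set M) := fun y hy hy' => by
    obtain ⟨s, hs, e⟩ := h.2 y hy hy'
    have ys : y ∈ centralizer ({s} : Set M) := mem_centralizer_singleton_iff.2 e.symm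
    have k := Transfer.HasNormalPComplement.mem_centralizer_of_le (h.1 s hs) (Q := R ⊓ centralizer ({s} : Set M))
      (hR.to_le inf_le_left) (inf_le_inf_right _ hRL) ⟨hy, ys⟩
      (Solv.le_normalizer_inf (B := centralizer ({s} : Set M)) le_normalizer_of_normal le_normalizer ys) (hy'.coprime hp)
    refine Solv.p_times_q p (zpowers s) (zpowers y) R (IsPGroup.of_card (n := 1) (by rw [Nat.card_zpowers, hs, pow_one]))
      (by rw [Nat.card_zpowers]; exact hy'.coprime hp) hR (zpowers_le.2 (ca_cz.2 e.symm)) le_normalizer_of_normal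
      le_normalizer_of_normal (fun x hx => ca_cz.2 ?_) (mem_zpowers y)
    exact (k x ⟨hx.1, mem_centralizer_singleton_iff.2 (ca_cz.1 hx.2).symm⟩).symm
  obtain ⟨z, hz⟩ : ∃ z : R, orderOf z = p := by
    obtain ⟨n, hn⟩ := hR.exists_card_eq
    refine exists_prime_orderOf_dvd_card' p (hn ▸ dvd_pow_self p ?_)
    rintro rfl
    exact h1 (card_eq_one.1 hn)
  have hC := (Transfer.hasNormalPComplement_subgroup_iff_mul _).1 (h.1 z ((orderOf_coe z).trans hz))
  have mz : ∀ y ∈ L, PP p y → y ∈ L ⊓ centralizer ({(z : M)} : Set M) := fun y hy hy' =>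
    ⟨hy, mem_centralizer_singleton_iff.2 (key y hy hy' z z.2).symm⟩
  by_contra n
  obtain ⟨B, q, g, hB, hq, hqp, ⟨k, hk⟩, hg, hg'⟩ := Transfer.exists_qElement_of_not_hasNormalPComplement n
  refine hg' fun b hb => ?_
  have g1 : PP p (b * g * b⁻¹) := PP.map ⟨q, k, hq, hqp, hk⟩ (MulAut.conj b).toMonoidHom
  have g2 : PP p g⁻¹ := ⟨q, k, hq, hqp, (orderOf_inv g).trans hk⟩
  have g1' := g1.map L.subtype
  have g2' := g2.map L.subtype
  have c := hC _ (mz _ (b * g * b⁻¹).2 g1') _ (mz _ g⁻¹.2 g2') (g1'.coprime hp) (g2'.coprime hp)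
  have e := Transfer.eq_one_of_mem_isPGroup_of_coprime hB (x := b * g * b⁻¹ * g⁻¹)
    (by simpa only [mul_assoc] using mul_mem hb ((mem_normalizer_iff.1 hg _).1 (inv_mem hb))) (by rwa [← orderOf_coe])
  rwa [mul_inv_eq_one, mul_inv_eq_iff_eq_mul] at e

/-- PROOF.  An element `s̄` of order `p` lifts to an element `s` of order `p` (take the `p`-part of a
preimage; its `p`-th power is a `p`-element of `O`), and `L̄ ⊓ C(s̄)` is the image of `L ⊓ C(s)`
(coprime action: if `x s x⁻¹ ∈ s O` then `⟨s⟩`, `⟨x s x⁻¹⟩` are Sylow in `O ⊔ ⟨s⟩`, conjugate by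
some `o ∈ O`, and `o x` centralizes `s`; look for a library lemma in `Grp/*`, `Solv/*`), so has
a normal `p`-complement (`HasNormalPComplement.map`).  A `PP p` element of `L̄` lifts to a `PP p`
element of `L` (the `r`-part of a preimage), and elements of order `p` keep their order. -/
theorem Hy.quot {M : Type*} [Group M] [Finite M] {p : ℕ} [Fact p.Prime] {L O : Subgroup M}
    [L.Normal] [O.Normal] (h : Hy p L) (hOL : O ≤ L) (hO : (Nat.card O).Coprime p) :
    Hy p (L.map (QuotientGroup.mk' O)) := by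
  have hp : p.Prime := Fact.out
  refine ⟨fun t ht => ?_, ?_⟩
  · obtain ⟨x, rfl⟩ := QuotientGroup.mk'_surjective O t
    obtain ⟨s, -, ⟨j, hj⟩, e⟩ := ca_lift (r := p) (QuotientGroup.mk' O) x (k := 1) (by
      rw [pow_one, ← ht, pow_orderOf_eq_one])
    rw [← e] at ht ⊢
    have s1 : s ^ p ∈ O := (QuotientGroup.eq_one_iff _).1 (by
      change QuotientGroup.mk' O (s ^ p) = 1
      rw [map_pow, ← ht, pow_orderOf_eq_one])
    have s2 : s ^ p = 1 := orderOf_eq_one_iff.1 (Nat.Coprime.eq_one_of_dvd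
      ((Transfer.coprime_orderOf_of_mem hO s1).pow_right j) (orderOf_dvd_of_pow_eq_one (by
        rw [← pow_mul, mul_comm, pow_mul, hj, one_pow])))
    have hs : orderOf s = p := orderOf_eq_prime s2 (by
      rintro rfl
      rw [map_one, orderOf_one] at ht
      exact hp.one_lt.ne ht)
    refine Transfer.HasNormalPComplement.of_le (Transfer.HasNormalPComplement.map (h.1 s hs) (QuotientGroup.mk' O)) ?_
    rintro _ ⟨⟨y, hy, rfl⟩, hy'⟩
    have c : Commute (QuotientGroup.mk' O s) (QuotientGroup.mk' O y) := (mem_centralizer_singleton_iff.1 hy').symm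
    obtain ⟨n, hn, k⟩ := Solv.coprime_fixed_coset' (zpowers s) O le_normalizer_of_normal
      (by rw [Nat.card_zpowers, hs]; exact hO.symm) (.inl (Solv.isSolvable_of_isMulCommutative _)) y (by
        rintro _ ⟨n, rfl⟩
        refine (QuotientGroup.eq_one_iff _).1 ?_
        change QuotientGroup.mk' O _ = 1
        simp only [map_mul, map_inv, map_zpow]
        rw [(c.zpow_left n).eq, mul_inv_cancel_right, inv_mul_cancel])
    refine ⟨y * n, ⟨mul_mem hy (hOL hn), mem_centralizer_singleton_iff.2 (ca_cz.1 k).symm⟩, ?_⟩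
    rw [map_mul, show QuotientGroup.mk' O n = 1 from (QuotientGroup.eq_one_iff _).2 hn, mul_one]
  · rintro _ ⟨x, hx, rfl⟩ ⟨r, k, hr, hrp, e⟩
    have : Fact r.Prime := ⟨hr⟩
    obtain ⟨y, hy, ⟨j, hj⟩, e'⟩ := ca_lift (r := r) (QuotientGroup.mk' O) x (k := k) (by rw [← e, pow_orderOf_eq_one])
    obtain ⟨i, -, hi⟩ := (Nat.dvd_prime_pow hr).1 (orderOf_dvd_of_pow_eq_one hj)
    obtain ⟨s, hs, c⟩ := h.2 y (zpowers_le.2 hx hy) ⟨r, i, hr, hrp, hi⟩
    refine ⟨QuotientGroup.mk' O s, orderOf_eq_prime (by rw [← map_pow, ← hs, pow_orderOf_eq_one, map_one]) fun k => ?_,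
      by rw [← e', ← map_mul, c, map_mul]⟩
    have := Transfer.coprime_orderOf_of_mem hO ((QuotientGroup.eq_one_iff _).1 k)
    rw [hs, Nat.coprime_self] at this
    exact hp.one_lt.ne' this

/-- PROOF.  `hasNormalPComplement_subgroup_iff_mul`: if the image of `x y` has `p'`-order `n` then
`(x y) ^ n ∈ O`, so `x y` has `p'`-order. -/
theorem of_quot {M : Type*} [Group M] [Finite M] {p : ℕ} [Fact p.Prime] {L O : Subgroup M}
    [O.Normal] (hO : (Nat.card O).Coprime p)
    (h : HasNormalPComplement p (L.map (QuotientGroup.mk' O))) : HasNormalPComplement p L := by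
  refine (Transfer.hasNormalPComplement_subgroup_iff_mul _).2 fun x hx y hy h1 h2 => ?_
  have c := (Transfer.hasNormalPComplement_subgroup_iff_mul _).1 h _ (mem_map_of_mem _ hx) _ (mem_map_of_mem _ hy)
    (Transfer.coprime_orderOf_map _ h1) (Transfer.coprime_orderOf_map _ h2)
  rw [← map_mul] at c
  have m : (x * y) ^ orderOf (QuotientGroup.mk' O (x * y)) ∈ O := (QuotientGroup.eq_one_iff _).1 (by
    change QuotientGroup.mk' O _ = 1
    rw [map_pow, pow_orderOf_eq_one])
  exact (c.mul_left (Transfer.coprime_orderOf_of_mem hO m)).of_dvd_left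
    (orderOf_dvd_of_pow_eq_one (by rw [pow_mul, pow_orderOf_eq_one]))

end Cfsg.Agent.Ppn
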