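import Mathlib
import Cfsg.Agent.Ppn.Defs

set_option autoImplicit false

namespace Cfsg.Agent.Ppn

open Cfsg Subgroup

/-- Split rank one in odd characteristic.  PROOF.  Take `1 ≠ y ∈ P`.  Let `α² = 1`, `α y = y`,
`C = Fx α` with a normal 2-complement, so products of odd-order elements of `C` have odd order
(`Transfer.hasNormalPComplement_subgroup_iff_mul`).  `α` acts on `Ω = Sylow p K`
(`Sylow.pointwiseMulAction`, `MulAut K` acts on `K`), `α • (u • Q) = α u • α • Q`.  Let `Δ` be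
the fixed points of `α` in `Ω`.  `P ∈ Δ` (as `y ∈ P ⊓ α • P`, TI).  `#Ω = #P + 1` is even, so
(2-group `zpowers α`, `IsPGroup.card_modEq_card_fixedPoints` or
`IsPGroup.exists_fixed_point_of_prime_dvd_card_of_fixed_point`) there is `Q ≠ P` in `Δ`.
REG: for `R : Ω`, the group `R` acts regularly on `Ω \ {R}`: `u ∈ R`, `u • Q = Q`, `Q ≠ R` gives
`u ∈ Q` (a `p`-element normalizing a Sylow lies in it) so `u ∈ Q ⊓ R = ⊥`; thus `u ↦ u • Q` is
injective from `R` to `Ω \ {R}`, and both have `#P` elements.  So for `R, Q₁, Q₂ ∈ Δ`,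
`Q₁, Q₂ ≠ R`, the unique `u ∈ R` with `u • Q₁ = Q₂` has `α u = u`, i.e. `u ∈ C`, of odd order.
Let `Q' = y • Q ∈ Δ`; `Q' ≠ Q` (REG), `Q' ≠ P`.  Take `u₁ ∈ Q'` with `u₁ • P = Q`; then
`Q'' = u₁ • Q ∈ Δ`, `Q'' ≠ Q`; take `u₂ ∈ Q` with `u₂ • Q'' = P`.  Then `g = u₂ u₁` swaps `P ≠ Q`
and has odd order `m`; but `g ^ m • P = Q ≠ P`. -/
theorem good_of_ti {K : Type*} [Group K] [Finite K] (p : ℕ) [Fact p.Prime] (hp : p ≠ 2)
    (P : Sylow p K) (hP : (P : Subgroup K) ≠ ⊥) (hn : Nat.card (Sylow p K) = Nat.card P + 1)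
    (hti : ∀ Q R : Sylow p K, Q ≠ R → (Q : Subgroup K) ⊓ R = ⊥) : Good K := by
  have hp' : p.Prime := Fact.out
  have := Fact.mk Nat.prime_two
  have pp : ∀ (R : Sylow p K), ∀ u ∈ R, ∃ k, orderOf u = p ^ k := fun R u hu => by
    obtain ⟨k, hk⟩ := IsPGroup.iff_orderOf.1 R.2 ⟨u, hu⟩
    exact ⟨k, by rw [← hk, orderOf_mk]⟩
  have od : ∀ (R : Sylow p K), ∀ u ∈ R, (orderOf u).Coprime 2 := fun R u hu => by
    obtain ⟨k, hk⟩ := pp R u hu
    exact hk ▸ ((Nat.coprime_primes hp' Nat.prime_two).2 hp).pow_left k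
  have fr : ∀ R Q : Sylow p K, Q ≠ R → ∀ u ∈ R, u • Q = Q → u = 1 := fun R Q h u hu e =>
    mem_bot.1 ((hti R Q h.symm).le ((R.2.inf_normalizer_sylow Q).le
      ⟨hu, Sylow.smul_eq_iff_mem_normalizer.1 e⟩))
  have fx : ∀ (R : Sylow p K), ∀ u ∈ R, u • R = R := fun R u hu =>
    Sylow.smul_eq_iff_mem_normalizer.2 (le_normalizer hu)
  have inj : ∀ R Q : Sylow p K, Q ≠ R → ∀ u ∈ R, ∀ v ∈ R, u • Q = v • Q → u = v := fun R Q h u hu v hv e =>
    (inv_mul_eq_one.1 (fr R Q h _ (mul_mem (inv_mem hv) hu) (by rw [mul_smul, e, inv_smul_smul]))).symm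
  have ne : ∀ R Q : Sylow p K, Q ≠ R → ∀ u ∈ R, u • Q ≠ R := fun R Q h u hu e =>
    h (MulAction.injective u (e.trans (fx R u hu).symm))
  have reg : ∀ R Q Q' : Sylow p K, Q ≠ R → Q' ≠ R → ∃ u ∈ R, u • Q = Q' := fun R Q Q' h h' => by
    classical
    have := Fintype.ofFinite (Sylow p K)
    obtain ⟨u, e⟩ := ((Nat.bijective_iff_injective_and_card
      (fun u : R => (⟨(u : K) • Q, ne R Q h u u.2⟩ : {X // X ≠ R}))).2
      ⟨fun u v e => Subtype.ext (inj R Q h u u.2 v v.2 (congrArg Subtype.val e)), by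
        rw [Nat.card_eq_fintype_card (α := {X // X ≠ R}), Fintype.card_subtype_compl, Fintype.card_subtype_eq,
          ← Nat.card_eq_fintype_card, hn]
        exact Nat.card_congr (Sylow.equiv R P).toEquiv⟩).2 ⟨Q', h'⟩
    exact ⟨u, u.2, congrArg Subtype.val e⟩
  obtain ⟨⟨y, hy⟩, y1⟩ := ne_bot_iff_exists_ne_one.1 hP
  replace y1 : y ≠ 1 := fun e => y1 (Subtype.ext e)
  refine ⟨y, (pp P y hy).elim fun k hk => ⟨p, k, hp', hp, hk⟩, fun α h1 h2 h3 => ?_⟩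
  rw [Transfer.hasNormalPComplement_subgroup_iff_mul] at h3
  have cm : ∀ (u : K) (Q : Sylow p K), α • u • Q = α u • α • Q := fun u Q => by
    rw [Sylow.smul_def, Sylow.smul_def, smul_smul, smul_smul]
    congr 1
    ext; simp
  have mm : ∀ R : Sylow p K, ∀ u ∈ R, α u ∈ α • R := fun R u hu => smul_mem_pointwise_smul u α R.1 hu
  have reg' : ∀ R Q Q' : Sylow p K, α • R = R → α • Q = Q → α • Q' = Q' → Q ≠ R → Q' ≠ R →
      ∃ u ∈ R, α u = u ∧ u • Q = Q' := fun R Q Q' a b c h h' => by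
    obtain ⟨u, hu, e⟩ := reg R Q Q' h h'
    exact ⟨u, hu, inj R Q h _ (a ▸ mm R u hu) u hu (by rw [e, ← c, ← e, cm, b]), e⟩
  have aP : α • P = P := by_contra fun k => y1 (mem_bot.1 ((hti _ _ k).le ⟨h2 ▸ mm P y hy, hy⟩))
  obtain ⟨Q, aQ, QP⟩ : ∃ Q : Sylow p K, α • Q = Q ∧ P ≠ Q := by
    have pg : IsPGroup 2 (zpowers α) := fun ⟨_, k, rfl⟩ => ⟨1, Subtype.ext (by
      change (α ^ k) ^ 2 ^ 1 = 1
      rw [pow_one, ← zpow_natCast, ← zpow_mul, mul_comm, zpow_mul, zpow_natCast, sq, h1, one_zpow])⟩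
    obtain ⟨n, e⟩ := P.2.exists_card_eq
    obtain ⟨Q, a, b⟩ := pg.exists_fixed_point_of_prime_dvd_card_of_fixed_point (Sylow p K) (a := P)
      (by rw [hn]; exact (Odd.add_one (e ▸ (hp'.odd_of_ne_two hp).pow)).two_dvd)
      (fun g => (zpowers_le (H := MulAction.stabilizer (MulAut K) P)).2 aP g.2)
    exact ⟨Q, a ⟨α, mem_zpowers α⟩, b⟩
  obtain ⟨u₁, a1, a2, a3⟩ := reg' (y • Q) P Q (by rw [cm, h2, aQ]) aP aQ (ne P Q QP.symm y hy).symm
    fun e => y1 (fr P Q QP.symm y hy e.symm)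
  obtain ⟨u₂, b1, b2, b3⟩ := reg' Q (u₁ • Q) P aQ (by rw [cm, a2, aQ]) aP
    (fun e => QP (MulAction.injective u₁ (a3.trans e.symm))) QP
  obtain ⟨m, hm⟩ := Nat.coprime_two_right.1 (h3 u₂ b2 u₁ a2 (od _ _ b1) (od _ _ a1))
  have g1 : (u₂ * u₁) • P = Q := by rw [mul_smul, a3, fx Q u₂ b1]
  have g2 : (u₂ * u₁) ^ 2 ∈ MulAction.stabilizer K P := by
    rw [MulAction.mem_stabilizer_iff, sq, mul_smul, g1, mul_smul, b3]
  have := pow_orderOf_eq_one (u₂ * u₁)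
  rw [hm, pow_succ', pow_mul] at this
  have e := congrArg (· • P) this
  simp only [mul_smul (u₂ * u₁), one_smul] at e
  rw [show _ • P = P from pow_mem g2 m, g1] at e
  exact QP e.symm

end Cfsg.Agent.Ppn
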