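import Mathlib
import Cfsg.Agent.Ppn.Defs
import Cfsg.Agent.Ppn.G1
import Cfsg.Agent.Class.SL2Sylow
import Cfsg.Agent.Class.PSL2Dickson

set_option autoImplicit false

namespace Cfsg.Agent.Ppn

open Cfsg Subgroup

/-- PROOF.  `good_of_ti` with `p = char F` (odd): the Sylow `p`-subgroups of `PSL₂(F)` have order
`q`, there are `q + 1` of them and they are TI (from `Class/SL2Sylow`: `card_sylow_SL2`,
`card_sylows_SL2`, `sylow_SL2_eq_lineStab`, the centre of `SL₂` has order prime to `p`; or from
`Class/PSL2Dickson`: `exists_sylow_PSL2_eq_unip`, `unip x`, `x : P1 F`, `pslTo`; `Good.of_equiv`). -/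
theorem good_PSL2_odd {F : Type} [Field F] [Fintype F] (hF : Odd (Fintype.card F)) :
    Good (Matrix.ProjectiveSpecialLinearGroup (Fin 2) F) := by
  classical
  obtain ⟨p, hpc⟩ := CharP.exists F
  obtain ⟨n, hp, hn⟩ := FiniteField.card F p
  have := Fact.mk hp
  have hp2 : p ≠ 2 := by
    rintro rfl
    rw [hn] at hF
    exact (Nat.not_odd_iff_even.2 (Nat.even_pow.2 ⟨even_two, n.ne_zero⟩)) hF
  choose f hf using Class.Dickson.exists_sylow_PSL2_eq_unip (F := F) p
  have hcard : ∀ x, Nat.card (f x : Subgroup (Matrix.ProjectiveSpecialLinearGroup (Fin 2) F)) =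
      Fintype.card F := fun x => by
    rw [hf, Class.Dickson.card_unip_comap, Nat.card_eq_fintype_card]
  have hne : ∀ x, (f x : Subgroup (Matrix.ProjectiveSpecialLinearGroup (Fin 2) F)) ≠ ⊥ := fun x e => by
    have h1 := hcard x
    rw [e, Subgroup.card_bot] at h1
    have := Fintype.one_lt_card (α := F)
    omega
  have hti : ∀ x y, x ≠ y → (f x : Subgroup (Matrix.ProjectiveSpecialLinearGroup (Fin 2) F)) ⊓ f y = ⊥ :=
    fun x y hxy => by
      rw [eq_bot_iff]
      intro g hg
      obtain ⟨h1, h2⟩ := mem_inf.1 hg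
      rw [hf, mem_comap] at h1 h2
      rcases Class.Dickson.mem_unip.1 h1 with h | ⟨-, h⟩
      · exact mem_bot.2 (Class.Dickson.pslTo_injective (h.trans (map_one _).symm))
      · exact absurd (h y (Class.Dickson.smul_eq_of_mem_unip h2)).symm hxy
  have hinj : Function.Injective f := fun x y e => by
    by_contra hxy
    have h1 := hti x y hxy
    rw [← e, inf_idem] at h1
    exact hne x h1
  have hsurj : Function.Surjective f := fun Q => by
    obtain ⟨g, hg⟩ := MulAction.exists_smul_eq (Matrix.ProjectiveSpecialLinearGroup (Fin 2) F)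
      (f (Class.Dickson.inf F)) Q
    refine ⟨Class.Dickson.pslTo F g • Class.Dickson.inf F, Sylow.ext ?_⟩
    rw [← hg, hf]
    ext a
    rw [mem_comap, ← Class.Dickson.conj_mem_unip, Sylow.coe_subgroup_smul,
      Subgroup.mem_pointwise_smul_iff_inv_smul_mem, hf, mem_comap, ← map_inv, ← map_mul, ← map_mul]
    simp only [MulAut.smul_def, ← map_inv, MulAut.conj_apply, inv_inv]
  refine good_of_ti p hp2 (f (Class.Dickson.inf F)) (hne _) ?_ ?_
  · rw [← Nat.card_congr (Equiv.ofBijective f ⟨hinj, hsurj⟩)]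
    have h1 := hcard (Class.Dickson.inf F)
    rw [Projectivization.card_of_finrank_two F _ (by simp), Nat.card_eq_fintype_card (α := F), ← h1]
  · intro Q R hQR
    obtain ⟨x, rfl⟩ := hsurj Q
    obtain ⟨y, rfl⟩ := hsurj R
    exact hti x y fun e => hQR (e ▸ rfl)

end Cfsg.Agent.Ppn
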