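import Mathlib
import Cfsg.Agent.Ppn.Defs

set_option autoImplicit false

namespace Cfsg.Agent.Ppn

open Cfsg Subgroup

open Cfsg.Agent.PLocal.Amb

theorem g2_two {K : Type*} [Group K] {α : MulAut K} (h : α * α = 1) : IsPGroup 2 (zpowers α) :=
  isPGroup_zpowers ⟨1, by simpa [pow_two] using h⟩

theorem g2_syl {K : Type*} [Group K] [Finite K] {α : MulAut K} (h : α * α = 1) :
    ∃ T : Sylow 2 K, ∀ x ∈ (T : Subgroup K), α x ∈ (T : Subgroup K) := by
  have : Fact (Nat.Prime 2) := ⟨Nat.prime_two⟩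
  obtain ⟨T, hT⟩ := (g2_two h).nonempty_fixed_point_of_prime_not_dvd_card (Sylow 2 K)
    (not_dvd_card_sylow 2 K)
  refine ⟨T, fun x hx => ?_⟩
  have e : α • T = T := hT ⟨α, mem_zpowers α⟩
  rw [← e, Sylow.pointwise_smul_def]
  exact smul_mem_pointwise_smul x α _ hx

theorem g2_even {K : Type*} [Group K] [Finite K] {α : MulAut K} (h : α * α = 1)
    (he : Even (Nat.card K)) : 2 ∣ Nat.card (Fx α) := by
  have : Fact (Nat.Prime 2) := ⟨Nat.prime_two⟩
  have m := (g2_two h).card_modEq_card_fixedPoints K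
  have e : MulAction.fixedPoints (zpowers α) K = (Fx α : Set K) := by
    ext x
    refine ⟨fun hx => hx ⟨α, mem_zpowers α⟩, fun hx g => ?_⟩
    exact (zpowers_le.2 hx : zpowers α ≤ MulAction.stabilizer (MulAut K) x) g.2
  rw [e] at m
  exact (m.dvd_iff dvd_rfl).1 he.two_dvd

theorem g2_not {K : Type*} [Group K] {t : K} (tt : t * t = 1) (c : (orderOf t).Coprime 2) : t = 1 :=
  orderOf_eq_one_iff.1 (c.eq_one_of_dvd (orderOf_dvd_of_pow_eq_one (by rw [pow_two, tt])))

/-- two distinct fixed involutions in an invariant elementary abelian group of order `≥ 8` -/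
theorem g2_fix {K : Type*} [Group K] [Finite K] {α : MulAut K} (h : α * α = 1) {E : Subgroup K}
    (hE : ∀ x ∈ E, α x ∈ E) (h2 : ∀ x ∈ E, x * x = 1) (cm : ∀ x ∈ E, ∀ y ∈ E, x * y = y * x)
    (h8 : 8 ≤ Nat.card E) : ∃ a ∈ E ⊓ Fx α, ∃ b ∈ E ⊓ Fx α, a ≠ 1 ∧ b ≠ 1 ∧ a ≠ b := by
  have aa : ∀ x, α (α x) = x := fun x => congrArg (fun β : MulAut K => β x) h
  let f : E →* K := MonoidHom.mk' (fun x => x * α x) fun x y => by
    rw [coe_mul, map_mul, mul_assoc, mul_assoc, ← mul_assoc (y : K), cm _ y.2 _ (hE _ x.2), mul_assoc]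
  have c1 : Nat.card f.range ≤ Nat.card (E ⊓ Fx α : Subgroup K) := card_le_of_le (by
    rintro _ ⟨x, rfl⟩
    refine mem_inf.2 ⟨mul_mem x.2 (hE _ x.2), ?_⟩
    change α (x * α x) = x * α x
    rw [map_mul, aa, cm _ x.2 _ (hE _ x.2)])
  have c2 : Nat.card f.ker ≤ Nat.card (E ⊓ Fx α : Subgroup K) := by
    rw [← card_map_of_injective E.subtype_injective]
    refine card_le_of_le ?_
    rintro _ ⟨x, hx, rfl⟩
    have e : (x : K) * α x = 1 := hx
    exact mem_inf.2 ⟨x.2, mul_left_cancel (e.trans (h2 _ x.2).symm)⟩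
  have c3 := f.ker.card_mul_index
  rw [index_ker] at c3
  have c4 : 2 < Nat.card (E ⊓ Fx α : Subgroup K) := by
    by_contra hh
    have := Nat.mul_le_mul (c2.trans (not_lt.1 hh)) (c1.trans (not_lt.1 hh))
    omega
  have := Fintype.ofFinite (E ⊓ Fx α : Subgroup K)
  rw [Nat.card_eq_fintype_card, Fintype.two_lt_card_iff] at c4
  obtain ⟨a, b, c, ab, ac, bc⟩ := c4
  refine ⟨_, (a⁻¹ * b).2, _, (a⁻¹ * c).2, fun e => ab ?_, fun e => ac ?_, fun e => bc ?_⟩
  · exact inv_mul_eq_one.1 (Subtype.ext e)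
  · exact inv_mul_eq_one.1 (Subtype.ext e)
  · exact mul_left_cancel (Subtype.ext e : a⁻¹ * b = a⁻¹ * c)

/-- CIT groups whose Sylow centre has rank `≥ 3`.  PROOF.  Take `y` of odd prime order (Cauchy).
Let `α² = 1`, `α y = y`, `C = Fx α` with a normal 2-complement, so products of odd-order elements
of `C` have odd order (`Transfer.hasNormalPComplement_subgroup_iff_mul`).  The 2-group `zpowers α`
fixes some `T' : Sylow 2 K` (their number is odd; `Sylow.pointwiseMulAction`); `T' = g • T`.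
`E' = {x ∈ T' | x centralizes T', x * x = 1}` is an `α`-invariant elementary abelian subgroup
containing `g E g⁻¹`, so `#E' ≥ 8`.  `x ↦ x * α x` is a hom `E' → E' ⊓ C` with kernel `E' ⊓ C`, so
`#E' ≤ #(E' ⊓ C)²`, so there are involutions `a ≠ b` in `E' ⊓ C`, and `a b` is an involution.
Each involution `t ∈ C` inverts `y`: `(y t)² = y · t y t⁻¹` has odd order `m`; `(y t)^m ≠ 1`
(else `t = y⁻¹ (y t)` has odd order), so `(y t)^m` is an involution centralizing the odd-order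
element `(y t)²`, whence `(y t)² = 1` by `hc`.  So `a b` centralizes `y`, and `y = 1` by `hc`. -/
theorem good_of_cit {K : Type*} [Group K] [Finite K]
    (hc : ∀ t : K, orderOf t = 2 → IsPGroup 2 (centralizer ({t} : Set K)))
    (T : Sylow 2 K) (E : Subgroup K) (hE : E ≤ T) (hE2 : ∀ e ∈ E, e * e = 1)
    (hEc : E ≤ centralizer ((T : Subgroup K) : Set K)) (h8 : 8 ≤ Nat.card E)
    (hK : ¬ IsPGroup 2 K) : Good K := by
  have : Fact (Nat.Prime 2) := ⟨Nat.prime_two⟩
  obtain ⟨r, hr, hd, h2⟩ : ∃ r, r.Prime ∧ r ∣ Nat.card K ∧ r ≠ 2 := by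
    by_contra! hh
    exact hK (IsPGroup.iff_card.2 ⟨_, Nat.eq_prime_pow_of_unique_prime_dvd Nat.card_pos.ne'
      fun hd h => hh _ hd h⟩)
  have := Fact.mk hr
  obtain ⟨y, hy⟩ := exists_prime_orderOf_dvd_card' r hd
  have yc : (orderOf y).Coprime 2 := hy ▸ (Nat.coprime_primes hr Nat.prime_two).2 h2
  refine ⟨y, ⟨r, 1, hr, h2, by rw [hy, pow_one]⟩, fun α aa ay hn => ?_⟩
  rw [Transfer.hasNormalPComplement_subgroup_iff_mul] at hn
  have cen : ∀ t x : K, t * t = 1 → t ≠ 1 → x * t = t * x → (orderOf x).Coprime 2 → x = 1 :=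
    fun t x tt t1 c o => eq_one_of_isPGroup_of_coprime
      (hc t (orderOf_eq_prime (by rw [pow_two, tt]) t1)) (mem_centralizer_singleton_iff.2 c) o
  have inv : ∀ t ∈ Fx α, t * t = 1 → t ≠ 1 → t * y * t = y⁻¹ := fun t ht tt t1 => by
    have ti : t⁻¹ = t := inv_eq_of_mul_eq_one_right tt
    have o := hn y ay (t * y * t⁻¹) (mul_mem (mul_mem ht ay) (inv_mem ht)) yc
      (by rwa [orderOf_conj'])
    have e : y * (t * y * t⁻¹) = (y * t) ^ 2 := by rw [ti, pow_two]; group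
    rw [e] at o
    have : (y * t) ^ 2 = 1 := by
      refine cen ((y * t) ^ orderOf ((y * t) ^ 2)) _ ?_ (fun e1 => t1 (g2_not tt ?_)) ?_ o
      · rw [← pow_two, ← pow_mul, mul_comm, pow_mul, pow_orderOf_eq_one]
      · have := hn y⁻¹ (inv_mem ay) (y * t) (mul_mem ay ht) (by rwa [orderOf_inv])
          (o.coprime_dvd_left (orderOf_dvd_of_pow_eq_one e1))
        rwa [inv_mul_cancel_left] at this
      · exact Commute.pow_pow_self _ _ _
    rw [← e, ti] at this
    exact eq_inv_of_mul_eq_one_right this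
  obtain ⟨T', hT'⟩ := g2_syl aa
  have aa' : ∀ x, α (α x) = x := fun x => congrArg (fun β : MulAut K => β x) aa
  obtain ⟨g, rfl⟩ := MulAction.exists_smul_eq K T T'
  rw [coe_smul_sylow] at hT'
  let E' : Subgroup K :=
    { carrier := {x | x ∈ cj(g, (T : Subgroup K)) ∧ (∀ s ∈ cj(g, (T : Subgroup K)), s * x = x * s) ∧ x * x = 1}
      one_mem' := ⟨one_mem _, by simp, by simp⟩
      mul_mem' := fun {a b} ha hb => ⟨mul_mem ha.1 hb.1, fun s hs => by
        rw [← mul_assoc, ha.2.1 s hs, mul_assoc, hb.2.1 s hs, mul_assoc], by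
        rw [mul_assoc, ← mul_assoc b, ← hb.2.1 a ha.1, mul_assoc, hb.2.2, mul_one, ha.2.2]⟩
      inv_mem' := fun {a} ha => by rwa [inv_eq_of_mul_eq_one_right ha.2.2] }
  obtain ⟨a, ha, b, hb, a1, b1, ab⟩ := g2_fix aa (E := E')
    (fun x hx => ⟨hT' x hx.1, fun s hs => by
      have := congrArg α (hx.2.1 _ (hT' s hs))
      rwa [map_mul, map_mul, aa'] at this, by rw [← map_mul, hx.2.2, map_one]⟩)
    (fun x hx => hx.2.2) (fun x hx y hy => hy.2.1 x hx.1) (by
      refine h8.trans ((card_cj g E).ge.trans (card_le_of_le fun x hx => ?_))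
      obtain ⟨e, he, rfl⟩ := mem_cj_iff_exists.1 hx
      refine ⟨conj_mem_cj g (hE he), fun s hs => ?_, ?_⟩
      · obtain ⟨s, hs', rfl⟩ := mem_cj_iff_exists.1 hs
        calc _ = g * (s * e) * g⁻¹ := by group
          _ = _ := by rw [hEc he s hs']; group
      · calc _ = g * (e * e) * g⁻¹ := by group
          _ = _ := by rw [hE2 e he]; group)
  have e1 := inv a ha.2 ha.1.2.2 a1
  have e2 := inv b hb.2 hb.1.2.2 b1
  have ai : a⁻¹ = a := inv_eq_of_mul_eq_one_right ha.1.2.2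
  have bi : b⁻¹ = b := inv_eq_of_mul_eq_one_right hb.1.2.2
  have y1 := cen (a * b) y (mul_mem ha.1 hb.1 : a * b ∈ E').2.2
    (fun e => ab (by rw [← bi]; exact eq_inv_of_mul_eq_one_left e)) (by
      calc y * (a * b) = a * (a⁻¹ * y * a) * b := by group
        _ = a * (b * y * b) * b⁻¹ := by rw [ai, bi, e1, e2]
        _ = _ := by group) yc
  rw [y1, orderOf_one] at hy
  exact hr.one_lt.ne hy

/-- A Sylow subgroup of odd prime order with odd normalizer.  PROOF.  Let `α² = 1`, `α y = y`,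
`C = Fx α` with normal 2-complement `O = pResidual 2 C` (the odd-order elements of `C`,
`Transfer.HasNormalPComplement.mem_pResidual_iff`).  `α` fixes an involution `t` (the 2-group
`zpowers α` acts on `{x | x * x = 1}`, which has even size as `#K` is even, and fixes `1`; or it
fixes a Sylow 2-subgroup `T'` and then `1 ≠ x ∈ T'`, take a power).  `⟨y⟩` and `t⟨y⟩t⁻¹` are
Sylow `r`-subgroups of `O`, so `g = o t` normalizes `⟨y⟩` for some `o ∈ O`; `g` has odd order by
`hN`, so `g ∈ O`, so `t ∈ O`: absurd. -/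
theorem good_of_odd {K : Type*} [Group K] [Finite K] {r : ℕ} (hr : r.Prime) (h2 : r ≠ 2) {y : K}
    (hy : orderOf y = r) (hr2 : ¬ r ^ 2 ∣ Nat.card K)
    (hN : Odd (Nat.card (normalizer ((zpowers y : Subgroup K) : Set K)))) (he : Even (Nat.card K)) :
    Good K := by
  have : Fact (Nat.Prime 2) := ⟨Nat.prime_two⟩
  have := Fact.mk hr
  have yc : (orderOf y).Coprime 2 := hy ▸ (Nat.coprime_primes hr Nat.prime_two).2 h2
  refine ⟨y, ⟨r, 1, hr, h2, by rw [hy, pow_one]⟩, fun α aa ay hn => ?_⟩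
  rw [Transfer.hasNormalPComplement_subgroup_iff_mul] at hn
  obtain ⟨⟨t, ht⟩, ot⟩ := exists_prime_orderOf_dvd_card' 2 (g2_even aa he)
  rw [← orderOf_coe] at ot
  let O : Subgroup K :=
    { carrier := {x | x ∈ Fx α ∧ (orderOf x).Coprime 2}
      one_mem' := ⟨one_mem _, by simp⟩
      mul_mem' := fun {a b} ha hb => ⟨mul_mem ha.1 hb.1, hn a ha.1 b hb.1 ha.2 hb.2⟩
      inv_mem' := fun {a} ha => ⟨inv_mem ha.1, by rw [orderOf_inv]; exact ha.2⟩ }
  have sy : IsSyl r (zpowers y) O := by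
    refine ⟨zpowers_le.2 ⟨ay, yc⟩, isPGroup_zpowers ⟨1, by rw [pow_one, ← hy, pow_orderOf_eq_one]⟩,
      fun R hR h1 _ => (eq_of_le_of_card_ge h1 ?_).ge⟩
    obtain ⟨k, hk⟩ := hR.exists_card_eq
    have : k ≤ 1 := by
      by_contra hh
      exact hr2 ((pow_dvd_pow r (by omega)).trans (hk ▸ card_subgroup_dvd_card R))
    rw [hk, Nat.card_zpowers, hy]
    exact (Nat.pow_le_pow_right hr.pos this).trans (pow_one r).le
  have tO : t ∈ 𝐍[O] := mem_normalizer_of_cj_le (cj_le_iff_forall.2 fun x hx =>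
    ⟨mul_mem (mul_mem ht hx.1) (inv_mem ht), by rw [orderOf_conj']; exact hx.2⟩)
  obtain ⟨o, ho, e⟩ := sy.exists_cj_eq (sy.cj_of_mem_normalizer tO)
  have hg := cj_eq_iff.1 ((cj_mul o t _).trans e)
  have c : (orderOf (o * t)).Coprime 2 :=
    (Nat.coprime_two_right.2 hN).coprime_dvd_left (Subgroup.orderOf_dvd_natCard _ hg)
  have := hn o⁻¹ (inv_mem ho.1) (o * t) (mul_mem ho.1 ht) (by rw [orderOf_inv]; exact ho.2) c
  rw [inv_mul_cancel_left, ot] at this
  exact absurd this (by decide)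

end Cfsg.Agent.Ppn
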