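import Mathlib
import Cfsg.Agent.Ppn.Defs
import Cfsg.Agent.Ppn.G1
import Cfsg.Agent.Ppn.G2
import Cfsg.Agent.Class.SL2Sylow
import Cfsg.Agent.Class.PSL2Dickson
import Cfsg.Agent.CIT.Spec

set_option autoImplicit false

namespace Cfsg.Agent.Ppn

open Cfsg Subgroup

/-- A simple group of order `60`. -/
theorem good_sixty {K : Type*} [Group K] [Finite K] [IsSimpleGroup K] (h : Nat.card K = 60) : Good K := by
  have : Fact (Nat.Prime 5) := ⟨Nat.prime_five⟩
  have c : ∀ Q : Sylow 5 K, Nat.card Q = 5 := fun Q =>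
    Class.card_sylow_of_card_eq Q (a := 1) (m := 12) h (by norm_num)
  obtain ⟨P⟩ : Nonempty (Sylow 5 K) := inferInstance
  have hP : (P : Subgroup K) ≠ ⊥ := fun e => by have := c P; rw [e, card_bot] at this; omega
  refine good_of_ti 5 (by norm_num) P hP ?_ fun Q R ne => ?_
  · have h1 := P.card_dvd_index
    have h2 := (P : Subgroup K).card_mul_index
    have h3 := card_sylow_modEq_one 5 K
    rw [c P, h] at h2
    rw [show (P : Subgroup K).index = 12 by omega] at h1
    have h4 : Nat.card (Sylow 5 K) ≠ 1 := fun e => by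
      have := (Nat.card_eq_one_iff_unique.1 e).1
      rcases (P.normal_of_subsingleton).eq_bot_or_eq_top with k | k
      · exact hP k
      · have := c P
        rw [k, card_top, h] at this
        omega
    have h5 := Nat.le_of_dvd (by norm_num) h1
    rw [c P]
    unfold Nat.ModEq at h3
    generalize Nat.card (Sylow 5 K) = m at *
    interval_cases m <;> omega
  · have h1 := card_dvd_of_le (inf_le_left : (Q : Subgroup K) ⊓ R ≤ Q)
    rw [c Q] at h1
    rcases (Nat.dvd_prime Nat.prime_five).1 h1 with k | k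
    · exact card_eq_one.1 k
    · have e := eq_of_le_of_card_ge (inf_le_left : (Q : Subgroup K) ⊓ R ≤ Q) (by rw [c Q, k])
      exact absurd (Sylow.ext (R.is_maximal' Q.isPGroup' (eq_of_le_of_card_ge (e.ge.trans inf_le_right)
        (by rw [c Q, c R])).ge)) ne

/-- PROOF.  `q = 2 ^ n`.  If `q = 4`: the group is simple of order 60, `good_of_ti` with `p = 5`
(six Sylow 5-subgroups of prime order; TI as the order is prime).  If `q ≥ 8`: `good_of_cit` with
`E = T` a Sylow 2-subgroup (elementary abelian of order `q`; the centralizer of an involution is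
the Sylow 2-subgroup containing it: see `Part/ItoF.mem_unip_of_comm`, `Class/PSL2Dickson`,
`Class/SL2Sylow`, `S3921.cit_PSL2`; the order `q(q²-1)` is not a power of 2). -/
theorem good_PSL2_even {F : Type} [Field F] [Fintype F] (hF : Even (Fintype.card F))
    (h3 : 3 < Fintype.card F) : Good (Matrix.ProjectiveSpecialLinearGroup (Fin 2) F) := by
  obtain ⟨p, hp⟩ := CharP.exists F
  obtain ⟨⟨n, n0⟩, hp', hn⟩ := FiniteField.card F p
  change Fintype.card F = p ^ n at hn
  obtain rfl : p = 2 := (Nat.Prime.even_iff hp').1 (Nat.even_pow.1 (hn ▸ hF)).1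
  have hΩ := CIT.mem_Ω_L2_even n0 hn
  obtain ⟨m, hm⟩ : ∃ m, 2 ^ n = 2 * m := dvd_pow_self 2 n0.ne'
  have odd : ∀ k, 2 ∣ k → k ∈ CIT.Ω (Matrix.ProjectiveSpecialLinearGroup (Fin 2) F) → k ∣ 2 := fun k h2 hk => by
    rcases (hΩ k).1 hk with h | h | h
    · exact h
    · have := h2.trans h; omega
    · have := h2.trans h; omega
  by_cases h4 : Fintype.card F = 4
  · have := Matrix.ProjectiveSpecialLinearGroup.rank_two_simple (F := F) (by rw [Nat.card_eq_fintype_card, h4])
    have h := Class.gcd_mul_card_PSL (ι := Fin 2) (F := F)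
    rw [Class.card_SL2, Fintype.card_fin, Nat.card_eq_fintype_card (α := F), h4] at h
    exact good_sixty (by simpa using h)
  obtain ⟨T, hT⟩ := Class.Dickson.exists_sylow_PSL2_eq_unip (F := F) 2 (Class.pointE0 F)
  have sq : ∀ e ∈ T.toSubgroup, e * e = 1 := fun e he => by
    obtain ⟨k, hk⟩ := (IsPGroup.iff_orderOf.1 T.isPGroup') ⟨e, he⟩
    rw [← orderOf_coe] at hk
    rw [← pow_two, ← orderOf_dvd_iff_pow_eq_one]
    rcases k with _ | k
    · exact (show orderOf e = 1 from hk) ▸ one_dvd _
    · exact odd _ ((show orderOf e = _ from hk) ▸ dvd_pow_self 2 k.succ_ne_zero) ⟨e, rfl⟩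
  refine good_of_cit (CIT.isCIT_of_Ω fun r hr h2 hk => ?_) T T le_rfl sq (fun a ha b hb => ?_) ?_ fun hK => ?_
  · have := Nat.le_of_dvd two_pos (odd _ (dvd_mul_right _ _) hk)
    have := hr.two_le
    omega
  · rw [eq_inv_of_mul_eq_one_left (sq _ (mul_mem hb ha)), mul_inv_rev, inv_eq_of_mul_eq_one_left (sq a ha),
      inv_eq_of_mul_eq_one_left (sq b hb)]
  · rw [hT, Class.Dickson.card_unip_comap, Nat.card_eq_fintype_card, hn]
    rw [hn] at h3 h4
    rcases n with _ | _ | _ | n
    · omega
    · exact absurd h3 (by simp)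
    · exact absurd rfl h4
    · exact Nat.pow_le_pow_right two_pos (by simp : 3 ≤ n + 1 + 1 + 1)
  · obtain ⟨g, hg⟩ := (hΩ _).2 (.inr (.inr dvd_rfl))
    obtain ⟨k, hk⟩ := IsPGroup.iff_orderOf.1 hK g
    rcases k with _ | k
    · omega
    · have := (dvd_pow_self 2 k.succ_ne_zero).trans (hk.symm.trans hg).dvd
      omega

end Cfsg.Agent.Ppn
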