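import Mathlib
import Cfsg.Agent.Ppn.Defs
import Cfsg.Agent.Ppn.G2
import Cfsg.Agent.No6.Mod3
import Cfsg.Agent.S0243

set_option autoImplicit false

namespace Cfsg.Agent.Ppn

open Cfsg Subgroup

/-- PROOF.  `y` of order 7, `R = ⟨y⟩` is Sylow, `C(y) = R` (a prime `s ≠ 7` dividing `#C(y)` gives
an element of order `7 s`, and `49 ∤ #K`), `N(R)/C(R)` embeds in `Aut R` of order 6, so
`#N(R) = 7 m`, `m ∣ 6`, and `n₇ = #K / (7 m) ≡ 1 mod 7` forces `m = 3`.  Then `good_of_odd`. -/
theorem good_of_seven {K : Type*} [Group K] [Finite K]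
    (hK : Nat.card K = 2520 ∨ Nat.card K = 20160)
    (h7 : ∀ x : K, 7 ∣ orderOf x → orderOf x = 7) : Good K := by
  have : Fact (Nat.Prime 7) := ⟨by norm_num⟩
  obtain ⟨P⟩ : Nonempty (Sylow 7 K) := inferInstance
  have h49 : ¬ 7 ^ 2 ∣ Nat.card K := by rcases hK with h | h <;> rw [h] <;> norm_num
  have h1 : ∀ Q : Subgroup K, IsPGroup 7 Q → 7 ∣ Nat.card Q → Nat.card Q = 7 := fun Q hQ h => by
    obtain ⟨n, hn⟩ := IsPGroup.iff_card.1 hQ
    rcases n with _ | _ | n
    · rw [hn] at h; norm_num at h
    · simpa using hn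
    · exact absurd ((pow_dvd_pow 7 (by omega)).trans (hn ▸ Q.card_subgroup_dvd_card)) h49
  have hP : Nat.card P = 7 := h1 _ P.2 (P.dvd_card_of_dvd_card (by
    rcases hK with h | h <;> rw [h] <;> norm_num))
  obtain ⟨⟨y, hy⟩, hy7⟩ := exists_prime_orderOf_dvd_card' (G := P) 7 hP.symm.dvd
  rw [← Subgroup.orderOf_coe] at hy7
  change orderOf y = 7 at hy7
  have e : zpowers y = P :=
    eq_of_le_of_card_ge (zpowers_le.2 hy) (by rw [Nat.card_zpowers, hy7]; exact hP.le)
  have hle : (P : Subgroup K) ≤ centralizer ((P : Subgroup K) : Set K) := by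
    rw [← e]; exact le_centralizer _
  have hC : Nat.card (centralizer ((P : Subgroup K) : Set K)) = 7 := by
    refine h1 _ (fun c => ⟨1, Subtype.ext ?_⟩) (hP.symm.dvd.trans (card_dvd_of_le hle))
    have hc : Commute (c : K) y := (c.2 y hy).symm
    rw [pow_one, coe_pow, coe_one, ← orderOf_dvd_iff_pow_eq_one]
    by_cases h : 7 ∣ orderOf (c : K)
    · exact (h7 _ h).dvd
    · have h2 := hc.orderOf_mul_eq_mul_orderOf_of_coprime
        (by rw [hy7]; exact ((Nat.Prime.coprime_iff_not_dvd (by norm_num)).2 h).symm)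
      have h3 := h7 _ (by rw [h2, hy7]; exact Dvd.intro_left _ rfl)
      rw [h2, hy7] at h3
      rw [show orderOf (c : K) = 1 by omega]
      exact one_dvd _
  refine good_of_odd (r := 7) (by norm_num) (by norm_num) hy7 h49 ?_
    (by rcases hK with h | h <;> rw [h] <;> decide)
  have hcyc : IsCyclic (P : Subgroup K) := e ▸ inferInstance
  have h2 := card_dvd_of_injective _
    (QuotientGroup.kerLift_injective (P : Subgroup K).normalizerMonoidHom)
  rw [normalizerMonoidHom_ker, ← index, IsCyclic.card_mulAut, hP,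
    Nat.totient_prime (by norm_num)] at h2
  have h3 := ((centralizer ((P : Subgroup K) : Set K)).subgroupOf
    (normalizer ((P : Subgroup K) : Set K))).index_mul_card
  rw [Nat.card_congr (subgroupOfEquivOfLe (centralizer_le_normalizer _)).toEquiv, hC] at h3
  have h4 := (normalizer ((P : Subgroup K) : Set K)).index_mul_card
  have h5 := card_sylow_modEq_one 7 K
  rw [P.card_eq_index_normalizer, Nat.ModEq] at h5
  rw [e, ← h3, Nat.odd_iff]
  rw [← h3] at h4
  change (normalizer ((P : Subgroup K) : Set K)).index % 7 = _ at h5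
  generalize (normalizer ((P : Subgroup K) : Set K)).index = n at h4 h5
  generalize ((centralizer ((P : Subgroup K) : Set K)).subgroupOf
    (normalizer ((P : Subgroup K) : Set K))).index = m at h2 h4
  have := Nat.le_of_dvd (by norm_num) h2
  interval_cases m <;> omega

/-- PROOF.  `good_of_seven`; a permutation of 7 points of order divisible by 7 is a 7-cycle
(`Equiv.Perm.isCycle_of_prime_order'`-style, or `cycleType`: some cycle length is divisible by 7
and the lengths sum to at most 7). -/
theorem good_A7 : Good (alternatingGroup (Fin 7)) := by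
  refine good_of_seven (Or.inl (by rw [nat_card_alternatingGroup]; simp [Nat.factorial])) fun x h => ?_
  rw [← Subgroup.orderOf_coe, ← Equiv.Perm.lcm_cycleType] at h ⊢
  obtain ⟨n, hn, h1⟩ := (show Nat.Prime 7 by norm_num).prime.exists_mem_multiset_dvd
    (h.trans (Multiset.lcm_dvd.2 fun _ => Multiset.dvd_prod))
  have h2 := (x : Equiv.Perm (Fin 7)).sum_cycleType_le
  have h3 := fun m => Equiv.Perm.two_le_of_mem_cycleType (σ := (x : Equiv.Perm (Fin 7))) (n := m)
  obtain ⟨t, ht⟩ := Multiset.exists_cons_of_mem hn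
  rw [ht] at h2 h3 ⊢
  have h4 := Nat.le_of_dvd (by have := h3 n (Multiset.mem_cons_self _ _); omega) h1
  rw [Multiset.sum_cons, Fintype.card_fin] at h2
  obtain rfl : t = 0 := Multiset.eq_zero_of_forall_notMem fun m hm => by
    have := h3 m (Multiset.mem_cons_of_mem hm)
    have := Multiset.single_le_sum (fun _ _ => Nat.zero_le _) m hm
    omega
  obtain rfl : n = 7 := by omega
  simp

/-- PROOF.  `good_of_seven` with `No6.orderOf_L34` and the order `20160` of `PSL₃(4)`. -/
theorem good_L34 {F : Type} [Field F] [Fintype F] (hF : Fintype.card F = 4) :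
    Good (Matrix.ProjectiveSpecialLinearGroup (Fin 3) F) := by
  have h := S0243.result hF 3 (by norm_num)
  simp only [Fin.prod_univ_three] at h
  norm_num at h
  refine good_of_seven (Or.inr (by omega)) fun x hx => ?_
  rcases No6.orderOf_L34 hF x with h | h | h | h
  exacts [absurd (hx.trans h) (by norm_num), absurd (hx.trans h) (by norm_num),
    absurd (hx.trans h) (by norm_num), Nat.dvd_antisymm h hx]

end Cfsg.Agent.Ppn
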