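import Mathlib
import Cfsg.Agent.FGS.SqfreeClass
import Cfsg.Agent.Grp.MinNormal
import Cfsg.Agent.Solv.Supersolvable
import Cfsg.Agent.Transfer.PCompl
import Cfsg.Agent.FGS.NilpPi

/-! Solvable groups whose prime-power elements have square-free class sizes. -/

set_option autoImplicit false
set_option linter.style.haveILetI false

namespace Cfsg.Agent.Ppn

open Cfsg Subgroup FGS FGS.Sqf
open scoped commutatorElement

universe u

/-- prime-power elements have square-free class size -/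
def SQ (G : Type*) [Group G] : Prop :=
  ∀ x : G, (∃ r k : ℕ, r.Prime ∧ orderOf x = r ^ k) →
    Squarefree (centralizer ({x} : Set G)).index

variable {G : Type u} [Group G] [Finite G]

theorem SQ.quot (h : SQ G) (N : Subgroup G) [N.Normal] : SQ (G ⧸ N) := by
  rintro y ⟨r, k, hr, hy⟩
  obtain ⟨x, rfl, j, hj⟩ := exists_lift_primePow _ (QuotientGroup.mk'_surjective N) hr y ⟨k, hy⟩
  exact (h x ⟨r, j, hr, hj⟩).squarefree_of_dvd
    (index_centralizer_map_dvd _ (QuotientGroup.mk'_surjective N) x)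

theorem SQ.relIndex_dvd (h : SQ G) {p : ℕ} [hp : Fact p.Prime] {P : Subgroup G} [P.Normal]
    (hP : IsPGroup p P) {x : G} (hx : ∃ r k : ℕ, r.Prime ∧ orderOf x = r ^ k) :
    (centralizer ({x} : Set G)).relIndex P ∣ p := by
  obtain ⟨k, hk⟩ := relIndex_pow hP (centralizer ({x} : Set G))
  have h1 := (h x hx).squarefree_of_dvd (relIndex_normal_dvd_index (centralizer ({x} : Set G)) P)
  rw [hk] at h1 ⊢
  rcases Nat.eq_zero_or_pos k with rfl | hk0
  · simp
  · rw [((Nat.squarefree_pow_iff hp.out.one_lt.ne' hk0.ne').1 h1).2, pow_one]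

theorem SQ.card_min [Group.IsSolvable G] (h : SQ G) {p : ℕ} [hp : Fact p.Prime] {V : Subgroup G}
    [hVn : V.Normal] (h1 : V ≠ ⊥) (hab : ∀ u ∈ V, ∀ v ∈ V, u * v = v * u)
    (hp1 : ∀ x ∈ V, x ^ p = 1) (hV : IsPGroup p V)
    (hmin : ∀ K : Subgroup G, K.Normal → K ≤ V → K = ⊥ ∨ K = V) : Nat.card V = p := by
  set C := centralizer (V : Set G) with hC
  by_cases hCt : C = ⊤
  · obtain ⟨v, hv, hv1⟩ := (bot_or_exists_ne_one V).resolve_left h1
    have hn : (zpowers v).Normal := ⟨fun x hx g => by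
      have := mem_centralizer_iff.1 (hCt.ge (mem_top g)) x (zpowers_le.2 hv hx)
      rwa [← this, mul_inv_cancel_right]⟩
    rcases hmin _ hn (zpowers_le.2 hv) with e | e
    · exact absurd (zpowers_eq_bot.1 e) hv1
    · rw [← e, Nat.card_zpowers]; exact orderOf_eq_prime (hp1 v hv) hv1
  haveI : Nontrivial (G ⧸ C) := QuotientGroup.nontrivial_iff.2 hCt
  obtain ⟨q, B, hq, hBn, hB1, hBc, hBq, -, -⟩ := Grp.exists_minNormal_elementaryAbelian (G ⧸ C)
  let π := QuotientGroup.mk' C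
  set A := B.comap π with hA
  haveI hAn : A.Normal := hBn.comap π
  let T : G → Subgroup G := fun g => (cmap hab g).range
  have hT : ∀ {g t : G}, t ∈ T g ↔ ∃ u ∈ V, ⁅u, g⁆ = t := mem_range_cmap hab
  have hTV : ∀ g, T g ≤ V := fun g t ht => by
    obtain ⟨u, hu, rfl⟩ := hT.1 ht
    exact comm_mem hu g
  have e1 : ∀ w g k : G, ⁅w, g * k⁆ = ⁅w, g⁆ * (g * ⁅w, k⁆ * g⁻¹) := fun w g k => by
    simp only [commutatorElement_def]; group
  have hTC : ∀ g k : G, π g = π k → T g = T k := fun g k e => by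
    have hc : g⁻¹ * k ∈ C := QuotientGroup.eq.1 e
    have : ∀ u ∈ V, ⁅u, k⁆ = ⁅u, g⁆ := fun u hu => by
      have h2 := e1 u g (g⁻¹ * k)
      rwa [mul_inv_cancel_left, commutatorElement_eq_one_iff_mul_comm.2
        (mem_centralizer_iff.1 hc u hu), mul_one, mul_inv_cancel, mul_one] at h2
    ext t
    rw [hT, hT]
    exact exists_congr fun u => and_congr_right fun hu => by rw [this u hu]
  have hconj : ∀ x g t : G, t ∈ T g → x * t * x⁻¹ ∈ T (x * g * x⁻¹) := by
    intro x g t ht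
    obtain ⟨u, hu, rfl⟩ := hT.1 ht
    refine hT.2 ⟨x * u * x⁻¹, hVn.conj_mem u hu x, ?_⟩
    simp only [commutatorElement_def]; group
  have hinv : ∀ a ∈ A, ∀ b ∈ A, ∀ t ∈ T a, b * t * b⁻¹ ∈ T a := fun a ha b hb t ht => by
    have h2 := hconj b a t ht
    rwa [hTC (b * a * b⁻¹) a (by
      have := congrArg Subtype.val (hBc.is_comm.comm (⟨π b, hb⟩ : B) ⟨π a, ha⟩)
      simp only [coe_mul] at this
      rw [map_mul, map_mul, this, map_inv, mul_inv_cancel_right])] at h2
  have hcomm : ∀ a ∈ A, ∀ b ∈ A, ∀ t ∈ T a, ⁅t, b⁆ ∈ T a := fun a ha b hb t ht => by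
    have : ⁅t, b⁆ = t * (b * t⁻¹ * b⁻¹) := by rw [commutatorElement_def]; group
    rw [this]; exact mul_mem ht (hinv a ha b hb _ (inv_mem ht))
  have hcard : ∀ a ∈ A, ∀ t ∈ T a, t ≠ 1 → Nat.card (T a) = p := fun a ha t ht ht1 => by
    obtain ⟨x, hx, j, hj⟩ := exists_lift_primePow π (QuotientGroup.mk'_surjective C) hq (π a)
      ((Nat.dvd_prime_pow hq).1 (by
        rw [pow_one]; exact orderOf_dvd_of_pow_eq_one (hBq _ ha)) |>.imp fun _ h => h.2)
    have h2 := h.relIndex_dvd hV ⟨q, j, hq, hj⟩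
    rw [← card_range_cmap hab] at h2
    change Nat.card (T x) ∣ p at h2
    rw [hTC x a hx] at h2
    refine ((Nat.dvd_prime hp.out).1 h2).resolve_left fun e => ht1 ?_
    exact mem_bot.1 (card_eq_one.1 e ▸ ht)
  have hnt : ∀ a, a ∉ C → ∃ t ∈ T a, t ≠ 1 := fun a ha => by
    by_contra hn
    push Not at hn
    exact ha (mem_centralizer_iff.2 fun u hu =>
      commutatorElement_eq_one_iff_mul_comm.1 (hn _ (hT.2 ⟨u, hu, rfl⟩)))
  obtain ⟨b₀, hb₀, hb₀1⟩ := (bot_or_exists_ne_one B).resolve_left hB1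
  obtain ⟨a₀, rfl⟩ := QuotientGroup.mk'_surjective C b₀
  have ha₀ : a₀ ∉ C := fun e => hb₀1 ((QuotientGroup.eq_one_iff _).2 e)
  have hfix : V ⊓ centralizer (A : Set G) = ⊥ := by
    refine (hmin _ inferInstance inf_le_left).resolve_right fun e => ha₀ ?_
    exact mem_centralizer_iff.2 fun u hu => (mem_centralizer_iff.1 (e.ge hu).2 a₀ hb₀).symm
  have key : ∀ a ∈ A, a ∉ C → ∃ d ∈ A, ∃ u ∈ T a, ⁅u, d⁆ ≠ 1 ∧ T d = T a := fun a ha haC => by
    obtain ⟨u, hu, hu1⟩ := hnt a haC
    have : u ∉ centralizer (A : Set G) := fun e => hu1 (mem_bot.1 (hfix ▸ ⟨hTV a hu, e⟩))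
    rw [mem_centralizer_iff] at this
    push Not at this
    obtain ⟨d, hd, hne⟩ := this
    have h2 : ⁅u, d⁆ ≠ 1 := fun e => hne (commutatorElement_eq_one_iff_mul_comm.1 e).symm
    have h3 : ⁅u, d⁆ ∈ T d := hT.2 ⟨u, hTV a hu, rfl⟩
    exact ⟨d, hd, u, hu, h2, eq_of_card_prime (hcard d hd _ h3 h2) (hcard a ha u hu hu1) h2 h3
      (hcomm a ha d hd u hu)⟩
  have hall : ∀ a ∈ A, a ∉ C → ∀ b ∈ A, b ∉ C → T a = T b := fun a' ha' haC b' hb' hbC => by
    by_contra hne
    obtain ⟨a, ha, u, hu, hu1, ea⟩ := key a' ha' haC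
    obtain ⟨b, hb, w, hw, hw1, eb⟩ := key b' hb' hbC
    rw [← ea] at hu hne
    rw [← eb] at hw hne
    have hua := hcomm a ha a ha u hu
    have hwb := hinv b hb a ha _ (hcomm b hb b hb w hw)
    have ca := hcard a ha _ hua hu1
    have cb := hcard b hb _ (hcomm b hb b hb w hw) hw1
    have h2 : ⁅u, b⁆ = 1 := by
      by_contra e
      exact hne (eq_of_card_prime ca cb e (hcomm a ha b hb u hu) (hT.2 ⟨u, hTV a hu, rfl⟩))
    have h3 : ⁅w, a⁆ = 1 := by
      by_contra e
      exact hne (eq_of_card_prime ca cb e (hT.2 ⟨w, hTV b hw, rfl⟩) (hcomm b hb a ha w hw))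
    have h4 : ⁅u, a⁆ ∈ T (a * b) := hT.2 ⟨u, hTV a hu, by rw [e1, h2]; simp⟩
    have h5 : a * ⁅w, b⁆ * a⁻¹ ∈ T (a * b) := hT.2 ⟨w, hTV b hw, by rw [e1, h3]; simp⟩
    have cab := hcard _ (mul_mem ha hb) _ h4 hu1
    exact hne ((eq_of_card_prime ca cab hu1 hua h4).trans
      (eq_of_card_prime cab cb (by simpa using hw1) h5 hwb))
  have hTn : (T a₀).Normal := ⟨fun t ht g => by
    have h2 := hconj g a₀ t ht
    rwa [hall _ (hAn.conj_mem a₀ hb₀ g) (fun e => ha₀ (by
      simpa [mul_assoc] using (inferInstance : C.Normal).conj_mem _ e g⁻¹)) a₀ hb₀ ha₀] at h2⟩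
  obtain ⟨t, ht, ht1⟩ := hnt a₀ ha₀
  rcases hmin _ hTn (hTV a₀) with e | e
  · exact absurd (mem_bot.1 (e ▸ ht)) ht1
  · rw [← e]; exact hcard a₀ hb₀ t ht ht1

/-- commutators and `n`-th powers -/
def DD (n : ℕ) (G : Type*) [Group G] : Subgroup G :=
  commutator G ⊔ closure (Set.range fun g : G => g ^ n)

omit [Finite G] in
theorem DD_le {n : ℕ} {H : Subgroup G} (h1 : ∀ a b : G, ⁅a, b⁆ ∈ H) (h2 : ∀ g : G, g ^ n ∈ H) :
    DD n G ≤ H :=
  sup_le (commutator_le.2 fun a _ b _ => h1 a b) ((closure_le _).2 (by rintro _ ⟨g, rfl⟩; exact h2 g))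

omit [Finite G] in
theorem comm_mem_DD (n : ℕ) (a b : G) : ⁅a, b⁆ ∈ DD n G :=
  mem_sup_left (commutator_mem_commutator (mem_top a) (mem_top b))

omit [Finite G] in
theorem pow_mem_DD (n : ℕ) (g : G) : g ^ n ∈ DD n G := mem_sup_right (subset_closure ⟨g, rfl⟩)

instance DD_normal (n : ℕ) (G : Type*) [Group G] : (DD n G).Normal :=
  ⟨fun x hx g => by
    have : g * x * g⁻¹ = ⁅g, x⁆ * x := by rw [commutatorElement_def]; group
    rw [this]; exact mul_mem (comm_mem_DD n g x) hx⟩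

theorem SQ.main (n : ℕ) (hn0 : n ≠ 0) (m : ℕ) : ∀ (G : Type u) [Group G] [Finite G]
    [Group.IsSolvable G], Nat.card G = m → SQ G → (∀ r : ℕ, r.Prime → r ∣ Nat.card G → r ∣ n) →
    IsSupersolvable G ∧ Group.IsNilpotent (DD n G) := by
  induction m using Nat.strong_induction_on with
  | _ m ih =>
  intro G _ _ _ hm h hn
  rcases subsingleton_or_nontrivial G with hs | hs
  · exact ⟨Solv.isSupersolvable_of_isNilpotent G inferInstance, inferInstance⟩
  obtain ⟨p, V, hp, hVn, h1, hVc, hp1, hV, hmin⟩ := Grp.exists_minNormal_elementaryAbelian G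
  haveI := Fact.mk hp
  have hc : Nat.card V = p := h.card_min h1
    (fun u hu v hv => congrArg Subtype.val (hVc.is_comm.comm (⟨u, hu⟩ : V) ⟨v, hv⟩)) hp1 hV hmin
  have hlt : Nat.card (G ⧸ V) < m := by
    rw [← hm, card_eq_card_quotient_mul_card_subgroup V, hc]
    exact (Nat.lt_mul_iff_one_lt_right Nat.card_pos).2 hp.one_lt
  obtain ⟨i1, i2⟩ := ih _ hlt (G ⧸ V) rfl (h.quot V)
    fun r hr hd => hn r hr (hd.trans (card_quotient_dvd_card V))
  haveI : IsCyclic V := isCyclic_of_prime_card hc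
  refine ⟨Solv.isSupersolvable_of_cyclic_normal V i1, ?_⟩
  have hle : DD n G ≤ centralizer (V : Set G) := by
    refine DD_le (fun a b => ?_) fun g => ?_
    · obtain ⟨z, hz⟩ := exists_gen_mod_centralizer V (hc ▸ hp)
      obtain ⟨k, hk⟩ := hz a
      obtain ⟨l, hl⟩ := hz b
      rw [← QuotientGroup.ker_mk' (centralizer (V : Set G)), MonoidHom.mem_ker,
        map_commutatorElement, commutatorElement_eq_one_iff_commute]
      have e1 := QuotientGroup.eq.2 hk
      have e2 := QuotientGroup.eq.2 hl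
      simp only [QuotientGroup.mk'_apply]
      rw [← e1, ← e2, QuotientGroup.mk_zpow, QuotientGroup.mk_zpow]
      exact Commute.zpow_zpow_self _ _ _
    · obtain ⟨v, hv⟩ := IsCyclic.exists_generator (α := V)
      have e : centralizer (V : Set G) = centralizer ({(v : G)} : Set G) := by
        refine le_antisymm (centralizer_le (Set.singleton_subset_iff.2 v.2)) fun x hx => ?_
        rw [mem_centralizer_iff]
        intro y hy
        obtain ⟨k, hk⟩ := mem_zpowers_iff.1 (hv ⟨y, hy⟩)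
        have h2 : (v : G) ^ k = y := by simpa using congrArg Subtype.val hk
        rw [← h2]
        exact ((show Commute x v from mem_centralizer_singleton_iff.1 hx).zpow_right k).symm
      have hsq : Squarefree (centralizer (V : Set G)).index := by
        rw [e]
        obtain ⟨k, hk⟩ := (IsPGroup.iff_orderOf.1 hV) v
        exact h v ⟨p, k, hp, by rw [orderOf_coe, hk]⟩
      have hd : (centralizer (V : Set G)).index ∣ n := by
        rw [← Nat.prod_primeFactors_of_squarefree hsq, Nat.prod_primeFactors_dvd_iff hn0]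
        intro r hr
        rw [Nat.mem_primeFactors] at hr ⊢
        exact ⟨hr.1, hn r hr.1 (hr.2.1.trans (index_dvd_card _)), hn0⟩
      obtain ⟨c, rfl⟩ := hd
      rw [pow_mul]
      exact pow_mem (pow_index_mem _ g) c
  let f : DD n G →* DD n (G ⧸ V) :=
    ((QuotientGroup.mk' V).comp (DD n G).subtype).codRestrict _ fun x =>
      DD_le (H := (DD n (G ⧸ V)).comap (QuotientGroup.mk' V))
        (fun a b => by rw [mem_comap, map_commutatorElement]; exact comm_mem_DD n _ _)
        (fun g => by rw [mem_comap, map_pow]; exact pow_mem_DD n _) x.2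
  refine Subgroup.isNilpotent_of_ker_le_center f fun x hx => mem_center_iff.2 fun y => Subtype.ext ?_
  have hxV : (x : G) ∈ V := (QuotientGroup.eq_one_iff _).1 (congrArg Subtype.val hx)
  exact (mem_centralizer_iff.1 (hle y.2) _ hxV).symm

theorem SQ.normal (h : SQ G) (N : Subgroup G) [N.Normal] : SQ N := fun x hx =>
  (h x (by simpa only [orderOf_coe] using hx)).squarefree_of_dvd (index_centralizer_normal_dvd N x)

theorem SQ.all [Group.IsNilpotent G] (h : SQ G) (x : G) :
    Squarefree (centralizer ({x} : Set G)).index := by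
  rw [Nat.squarefree_iff_prime_squarefree]
  intro r hr hd
  haveI := Fact.mk hr
  obtain ⟨u, v, hu, hv, ⟨k, hk⟩, hvr, e⟩ := Transfer.exists_pPart_mul (p := r) x
  let R : Sylow r G := default
  haveI hRn : (R : Subgroup G).Normal := inferInstance
  have h1 := h.relIndex_dvd R.isPGroup' (x := u) (by
    obtain ⟨j, -, hj⟩ := (Nat.dvd_prime_pow hr).1 (orderOf_dvd_of_pow_eq_one hk)
    exact ⟨r, j, hr, hj⟩)
  have h2 : centralizer ({u} : Set G) ⊓ R ≤ centralizer ({x} : Set G) := fun y hy => by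
    obtain ⟨j, hj⟩ := (IsPGroup.iff_orderOf.1 R.isPGroup') ⟨y, hy.2⟩
    rw [orderOf_mk] at hj
    have c1 : Commute y u := mem_centralizer_singleton_iff.1 hy.1
    have c2 : Commute y v := commute_of_coprime_of_isNilpotent
      (by rw [hj]; exact hvr.symm.pow_left j)
    rw [e]
    exact mem_centralizer_singleton_iff.2 (c1.mul_right c2)
  have h3 : (centralizer ({x} : Set G)).index ∣ r * (R : Subgroup G).index := by
    have h4 := relIndex_mul_index (inf_le_right : centralizer ({u} : Set G) ⊓ R ≤ R)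
    rw [inf_relIndex_right] at h4
    exact (index_dvd_of_le h2).trans (h4 ▸ Nat.mul_dvd_mul_right h1 _)
  exact R.not_dvd_index (Nat.dvd_of_mul_dvd_mul_left hr.pos (hd.trans h3))

end Cfsg.Agent.Ppn
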