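import Mathlib
import Cfsg.Agent.Ppn.Defs
import Cfsg.Agent.S0028

set_option autoImplicit false

namespace Cfsg.Agent.Ppn

open Cfsg Subgroup

theorem ta_comm {N : Type*} [Group N] {p : ℕ} {W : Subgroup N} [W.Normal] (hW : IsPGroup p W) {y s : N}
    (hy : y ∈ centralizer (W : Set N)) (hc : (orderOf y).Coprime p)
    (h : (s : N ⧸ W) * y = y * s) : s * y = y * s := by
  have hw : y⁻¹ * (s * y * s⁻¹) ∈ W := QuotientGroup.eq.1 (by
    rw [QuotientGroup.mk_mul, QuotientGroup.mk_mul, h, QuotientGroup.mk_inv, mul_inv_cancel_right])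
  have c : Commute y (y⁻¹ * (s * y * s⁻¹)) := (mem_centralizer_iff.1 hy _ hw).symm
  have h1 : (y⁻¹ * (s * y * s⁻¹)) ^ orderOf y = 1 := by
    have := c.mul_pow (orderOf y)
    rwa [mul_inv_cancel_left, conj_pow, pow_orderOf_eq_one, one_mul, mul_one, mul_inv_cancel,
      eq_comm] at this
  obtain ⟨k, hk⟩ := hW ⟨_, hw⟩
  have h2 : (y⁻¹ * (s * y * s⁻¹)) ^ p ^ k = 1 := congrArg Subtype.val hk
  have h3 := (pow_gcd_eq_one.2 ⟨h1, h2⟩ :)
  rw [hc.pow_right k, pow_one, inv_mul_eq_one, eq_mul_inv_iff_mul_eq] at h3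
  exact h3.symm

theorem ta_lift {N Q : Type*} [Group N] [Finite N] [Group Q] {p : ℕ} (hp : p.Prime) {D : Subgroup N}
    {f : N →* Q} {u : Q} (hu : u ∈ D.map f) (hc : (orderOf u).Coprime p) :
    ∃ y ∈ D, f y = u ∧ (orderOf y).Coprime p := by
  obtain ⟨x, hx, rfl⟩ := hu
  obtain ⟨k, m, hm, e⟩ := Nat.exists_eq_pow_mul_and_not_dvd (orderOf_pos x).ne' p hp.ne_one
  obtain ⟨n, h1, h2⟩ := Nat.chineseRemainder (hc.pow_right k) 1 0
  refine ⟨x ^ n, pow_mem hx n, by rw [map_pow, pow_eq_pow_iff_modEq.2 h1, pow_one],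
    Nat.Coprime.coprime_dvd_left (orderOf_dvd_of_pow_eq_one ?_)
      ((hp.coprime_iff_not_dvd.2 hm).symm)⟩
  rw [← pow_mul, ← orderOf_dvd_iff_pow_eq_one, e]
  exact Nat.mul_dvd_mul_right ((Nat.modEq_zero_iff_dvd).1 h2) m

/-- PROOF.  Let `D = C(W)`, `f = mk' W`.  Use `Transfer.hasNormalPComplement_subgroup_iff_local`:
let `B̄ ≤ f D ⊓ C(s̄)` be a `p`-group and `ȳ ∈ f D ⊓ C(s̄)` of `p'`-order normalizing `B̄`.  Lift
`ȳ` to `y ∈ D` of `p'`-order (the `p'`-part of a preimage in `D`) and `s̄` to any `s`.  Then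
`s y s⁻¹ = y w`, `w ∈ W` commutes with `y`, so `w = y⁻¹ (s y s⁻¹)`; `(y w)^n = w^n` for
`n = orderOf y` gives `w^n = 1`, so `w = 1`: `y` centralizes `W₁ = comap f (zpowers s̄) = W ⊔ ⟨s⟩`,
a `p`-group with `W < W₁`.  `U = comap f (B̄ ⊔ zpowers s̄)` is a `p`-group containing `W₁` and
normalized by `y`.  `y ∈ C(W₁)`, which has a normal `p`-complement, so `y` centralizes
`U ⊓ C(W₁)` (`HasNormalPComplement.mem_centralizer_of_le`); by the P×Q lemma
(`Solv.p_times_q p W₁ (zpowers y) U`) `y` centralizes `U`, so `ȳ` centralizes `B̄`. -/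
theorem quotA {N : Type*} [Group N] [Finite N] {p : ℕ} [Fact p.Prime] {W : Subgroup N} [W.Normal]
    (hW : IsPGroup p W)
    (hmax : ∀ W₁ : Subgroup N, IsPGroup p W₁ → W < W₁ →
      HasNormalPComplement p (centralizer (W₁ : Set N)))
    (s : N ⧸ W) (hs : orderOf s = p) :
    HasNormalPComplement p ↥((centralizer (W : Set N)).map (QuotientGroup.mk' W) ⊓
      centralizer ({s} : Set (N ⧸ W))) := by
  have hp : p.Prime := Fact.out
  refine Transfer.hasNormalPComplement_subgroup_iff_local.2 fun B hB hBp _ u hu hn hc => ?_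
  obtain ⟨y, hy, rfl, hyc⟩ := ta_lift hp hu.1 hc
  have hus : s * QuotientGroup.mk' W y = QuotientGroup.mk' W y * s :=
    (mem_centralizer_singleton_iff.1 hu.2).symm
  have hk : IsPGroup p (QuotientGroup.mk' W).ker := by rwa [QuotientGroup.ker_mk']
  have hz : IsPGroup p (zpowers s) := IsPGroup.of_card (n := 1) (by rw [Nat.card_zpowers, hs, pow_one])
  have h1 : IsPGroup p ((zpowers s).comap (QuotientGroup.mk' W)) := hz.comap_of_ker_isPGroup _ hk
  have hlt : W < (zpowers s).comap (QuotientGroup.mk' W) := by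
    refine lt_of_le_of_ne (fun w hw => ?_) fun e => ?_
    · rw [mem_comap, QuotientGroup.mk'_apply, (QuotientGroup.eq_one_iff w).2 hw]
      exact one_mem _
    · obtain ⟨t, rfl⟩ := QuotientGroup.mk_surjective s
      have : t ∈ W := e ▸ mem_zpowers (t : N ⧸ W)
      rw [(QuotientGroup.eq_one_iff t).2 this, orderOf_one] at hs
      exact hp.ne_one hs.symm
  have hy1 : y ∈ centralizer (((zpowers s).comap (QuotientGroup.mk' W) : Subgroup N) : Set N) :=
    mem_centralizer_iff.2 fun t ht => ta_comm hW hy hyc (by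
      obtain ⟨n, hn⟩ := ht
      have := (show Commute s _ from hus).zpow_left n
      rwa [show s ^ n = _ from hn] at this)
  have hsB : zpowers s ≤ normalizer (B : Set (N ⧸ W)) := zpowers_le.2 (centralizer_le_normalizer _
    (mem_centralizer_iff.2 fun b hb => mem_centralizer_singleton_iff.1 (hB hb).2))
  have hU : IsPGroup p ((zpowers s ⊔ B).comap (QuotientGroup.mk' W)) :=
    (hz.to_sup_of_normal_right' hBp hsB).comap_of_ker_isPGroup _ hk
  have hle : (zpowers s).comap (QuotientGroup.mk' W) ≤ (zpowers s ⊔ B).comap (QuotientGroup.mk' W) :=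
    comap_mono le_sup_left
  have hyU : y ∈ normalizer (((zpowers s ⊔ B).comap (QuotientGroup.mk' W) : Subgroup N) : Set N) := by
    refine mem_normalizer_fintype fun t ht => ?_
    have : zpowers s ⊔ B ≤ (zpowers s ⊔ B).comap (MulAut.conj (QuotientGroup.mk' W y)).toMonoidHom := by
      refine sup_le (zpowers_le.2 (mem_sup_left ?_)) fun b hb => mem_sup_right ((mem_normalizer_iff.1 hn b).1 hb)
      show QuotientGroup.mk' W y * s * (QuotientGroup.mk' W y)⁻¹ ∈ zpowers s
      rw [← hus, mul_inv_cancel_right]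
      exact mem_zpowers s
    exact this ht
  have key := Solv.p_times_q p _ (zpowers y) _ h1 (by rwa [Nat.card_zpowers]) hU
    (le_centralizer_iff.1 (zpowers_le.2 hy1)) (hle.trans le_normalizer) (zpowers_le.2 hyU)
    (le_centralizer_iff.1 (zpowers_le.2 (Transfer.HasNormalPComplement.mem_centralizer_of_le
      (hmax _ h1 hlt) hU.to_inf_left inf_le_right hy1 (mem_normalizer_fintype fun t ht =>
        mem_inf.2 ⟨(mem_normalizer_iff.1 hyU t).1 ht.1,
          mul_mem (mul_mem hy1 (mem_inf.1 ht).2) (inv_mem hy1)⟩) hyc)))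
  refine mem_centralizer_iff.2 fun b hb => ?_
  obtain ⟨t, rfl⟩ := QuotientGroup.mk_surjective b
  exact congrArg (QuotientGroup.mk' W) (mem_centralizer_iff.1 (key (mem_zpowers y)) t (mem_sup_right hb))

/-- PROOF.  `hasNormalPComplement_subgroup_iff_local`: `B ≤ D = C(W)` a `p`-group, `y ∈ D ⊓ N(B)` of
`p'`-order.  In the quotient `ȳ` centralizes `B̄` (`mem_centralizer_of_le`), so for `b ∈ B`,
`b y b⁻¹ = y w` with `w ∈ W` commuting with `y`; as in `quotA`, `w = 1`. -/
theorem quotB {N : Type*} [Group N] [Finite N] {p : ℕ} [Fact p.Prime] {W : Subgroup N} [W.Normal]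
    (hW : IsPGroup p W)
    (h : HasNormalPComplement p ((centralizer (W : Set N)).map (QuotientGroup.mk' W))) :
    HasNormalPComplement p (centralizer (W : Set N)) := by
  refine Transfer.hasNormalPComplement_subgroup_iff_local.2 fun B hB hBp _ y hy hn hc => ?_
  have := Transfer.HasNormalPComplement.mem_centralizer_of_le h (hBp.map (QuotientGroup.mk' W))
    (map_mono hB) (mem_map_of_mem _ hy) (le_normalizer_map _ (mem_map_of_mem _ hn))
    (hc.coprime_dvd_left (orderOf_map_dvd _ y))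
  exact mem_centralizer_iff.2 fun b hb => ta_comm hW hy hc
    (mem_centralizer_iff.1 this _ (mem_map_of_mem (QuotientGroup.mk' W) hb))

/-- PROOF.  Burnside: a Sylow `p`-subgroup has order `1` or `p`; if `p ∣ #X` then
`p = (#X).minFac` and the Sylow subgroup is cyclic (`IsCyclic.isComplement'` in Mathlib,
`Mathlib/GroupTheory/Transfer.lean`); else `hasNormalPComplement_of_coprime`. -/
theorem of_not_sq_dvd {X : Type*} [Group X] [Finite X] {p : ℕ} [Fact p.Prime]
    (hmin : ∀ r : ℕ, r.Prime → r ∣ Nat.card X → p ≤ r) (h : ¬ p ^ 2 ∣ Nat.card X) :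
    HasNormalPComplement p X := by
  have hp : p.Prime := Fact.out
  by_cases h1 : p ∣ Nat.card X
  swap
  · exact Transfer.hasNormalPComplement_of_coprime (hp.coprime_iff_not_dvd.2 h1).symm
  have h2 : Nat.card X ≠ 1 := fun e => hp.one_lt.ne' (Nat.dvd_one.1 (e ▸ h1))
  have h3 : (Nat.card X).minFac = p := le_antisymm (Nat.minFac_le_of_dvd hp.two_le h1)
    (hmin _ (Nat.minFac_prime h2) (Nat.minFac_dvd _))
  obtain ⟨P⟩ : Nonempty (Sylow p X) := inferInstance
  obtain ⟨k, hk⟩ := P.isPGroup'.exists_card_eq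
  have h4 : k ≤ 1 := by
    by_contra h5
    exact h ((pow_dvd_pow p (by omega)).trans (hk ▸ card_subgroup_dvd_card (P : Subgroup X)))
  have h5 : IsCyclic P := isCyclic_of_card_dvd_prime (p := p) (by
    rw [show Nat.card P = p ^ k from hk]
    exact (pow_dvd_pow p h4).trans (pow_one p).dvd)
  exact ⟨P, _, inferInstance, h5.isComplement' h3⟩

end Cfsg.Agent.Ppn
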